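/-
Groups with finitely many prime-graph partners have trivial solvable radical.
-/
import Cfsg.Agent.BG.B6
import Cfsg.Agent.Hyp.FTProof
set_option autoImplicit false

namespace CF.Ivc
open Subgroup CF.BG

/-- same prime graph -/
def SG (G H : Type*) [Group G] [Group H] : Prop :=
  (∀ p : ℕ, p.Prime → (p ∣ Nat.card G ↔ p ∣ Nat.card H)) ∧
    ∀ p q : ℕ, p.Prime → q.Prime → p ≠ q → ((∃ g : G, orderOf g = p * q) ↔ ∃ g : H, orderOf g = p * q)

variable {G H K : Type*} [Group G] [Group H] [Group K]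

theorem SG.trans (h : SG G H) (k : SG H K) : SG G K :=
  ⟨fun p a => (h.1 p a).trans (k.1 p a), fun p q a b c => (h.2 p q a b c).trans (k.2 p q a b c)⟩

theorem exists_ord [Finite G] {g : G} {n : ℕ} (h : n ∣ orderOf g) : ∃ x : G, orderOf x = n :=
  ⟨_, orderOf_pow_orderOf_div (orderOf_pos g).ne' h⟩

/-- a criterion: `H` embeds in `K`, and primes and edges of `K` come from `H` -/
theorem sg_of [Finite H] [Finite K] (f : H →* K) (hf : Function.Injective f)
    (a : ∀ p : ℕ, p.Prime → ∀ k : K, orderOf k = p → ∃ h : H, p ∣ orderOf h)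
    (b : ∀ p q : ℕ, p.Prime → q.Prime → p ≠ q → ∀ k : K, orderOf k = p * q → ∃ h : H, p * q ∣ orderOf h) :
    SG H K := by
  refine ⟨fun p hp => ⟨fun d => d.trans (card_dvd_of_injective f hf), fun d => ?_⟩, fun p q hp hq ne =>
    ⟨fun ⟨g, e⟩ => ⟨f g, (orderOf_injective f hf g).trans e⟩, fun ⟨k, e⟩ => ?_⟩⟩
  · have := Fact.mk hp
    obtain ⟨k, e⟩ := exists_prime_orderOf_dvd_card' p d
    obtain ⟨h, d⟩ := a p hp k e
    exact d.trans (orderOf_dvd_natCard h)
  · obtain ⟨h, d⟩ := b p q hp hq ne k e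
    exact exists_ord d

theorem sg_equiv [Finite G] [Finite H] (e : G ≃* H) : SG G H :=
  sg_of e.toMonoidHom e.injective (fun _ _ k o => ⟨e.symm k, by rw [e.symm.orderOf_eq, o]⟩)
    fun _ _ _ _ _ k o => ⟨e.symm k, by rw [e.symm.orderOf_eq, o]⟩

/-- the fibre square over a normal subgroup -/
def sq (V : Subgroup H) [V.Normal] : Subgroup (H × H) :=
  ((QuotientGroup.mk' V).comp (MonoidHom.fst H H)).eqLocus ((QuotientGroup.mk' V).comp (MonoidHom.snd H H))

theorem mem_sq {V : Subgroup H} [V.Normal] {x : H × H} : x ∈ sq V ↔ (x.1 : H ⧸ V) = x.2 := Iff.rfl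

theorem dvd_ord [Finite H] {V : Subgroup H} [V.Normal] {p q : ℕ} (hV : PiGrp {p} V) (hq : q.Prime)
    (ne : q ≠ p) {x y : H} (e : (x : H ⧸ V) = y) (d : q ∣ orderOf x) : q ∣ orderOf y := by
  have m : x ^ orderOf y ∈ V := (QuotientGroup.eq_one_iff _).1 (by
    rw [QuotientGroup.mk_pow, e, ← QuotientGroup.mk_pow, pow_orderOf_eq_one]; rfl)
  have := d.trans (orderOf_dvd_of_pow_eq_one (n := orderOf y * orderOf (x ^ orderOf y))
    (by rw [pow_mul, pow_orderOf_eq_one]))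
  exact ((Nat.Prime.dvd_mul hq).1 this).resolve_right fun k => ne (hV.elt m q hq k)

/-- a normal `p`-subgroup gives a larger group with the same prime graph and a normal `p`-subgroup -/
theorem step (H : Type) [Group H] [Finite H] {p : ℕ} {V : Subgroup H} [V.Normal] (hV : PiGrp {p} V)
    (h1 : V ≠ ⊥) : ∃ (K : Type) (_ : Group K) (_ : Finite K) (W : Subgroup K), W.Normal ∧ PiGrp {p} W ∧
      W ≠ ⊥ ∧ Nat.card H < Nat.card K ∧ SG H K := by
  let f : H →* sq V := ((MonoidHom.id H).prod (MonoidHom.id H)).codRestrict _ fun _ => mem_sq.2 rfl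
  have hf : Function.Injective f := fun a b e => congrArg (·.1.1) e
  let φ : sq V →* H := (MonoidHom.fst H H).comp (sq V).subtype
  obtain ⟨v, hv, v1⟩ := exists_mem_ne_one h1
  have mv : ((1 : H), v) ∈ sq V := mem_sq.2 ((QuotientGroup.eq_one_iff v).2 hv).symm
  have lc : ∀ {r : ℕ}, r.Prime → ∀ k : sq V, r ∣ orderOf k → r ∣ orderOf k.1.1 ∨ r ∣ orderOf k.1.2 :=
    fun hr k d => by
      rw [← orderOf_coe, Prod.orderOf] at d
      exact (Nat.Prime.dvd_mul hr).1 (d.trans (Nat.lcm_dvd_mul _ _))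
  refine ⟨sq V, inferInstance, inferInstance, φ.ker, inferInstance, piGrp_of_forall_elt fun x hx => ?_,
    ne_bot_of_mem (x := ⟨_, mv⟩) rfl fun e => v1 (congrArg (·.1.2) e), ?_, sg_of f hf (fun q hq k e => ?_)
      fun q r hq hr ne k e => ?_⟩
  · have e : x.1.1 = 1 := hx
    intro r hr d
    refine (lc hr x d).elim (fun d => ?_) (hV.elt ((QuotientGroup.eq_one_iff _).1 ?_) r hr)
    · rw [e, orderOf_one] at d; exact (hr.one_lt.ne' (Nat.dvd_one.1 d)).elim
    · rw [← mem_sq.1 x.2, e]; rfl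
  · refine lt_of_le_of_ne (Nat.card_le_card_of_injective f hf) fun e => ?_
    obtain ⟨a, ha⟩ := ((Nat.bijective_iff_injective_and_card f).2 ⟨hf, e⟩).2 ⟨_, mv⟩
    exact v1 ((congrArg (·.1.2) ha).symm.trans (congrArg (·.1.1) ha))
  · exact (lc hq k e.symm.dvd).elim (fun d => ⟨_, d⟩) fun d => ⟨_, d⟩
  have both : ∀ {s : ℕ}, s.Prime → s ≠ p → s ∣ orderOf k → s ∣ orderOf k.1.1 ∧ s ∣ orderOf k.1.2 :=
    fun hs n d => (lc hs k d).elim (fun d => ⟨d, dvd_ord hV hs n (mem_sq.1 k.2) d⟩)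
      fun d => ⟨dvd_ord hV hs n (mem_sq.1 k.2).symm d, d⟩
  have c := (Nat.coprime_primes hq hr).2 ne
  have dq : q ∣ orderOf k := e ▸ dvd_mul_right q r
  have dr : r ∣ orderOf k := e ▸ dvd_mul_left r q
  by_cases n : q = p
  · have := both hr (fun j => ne (n.trans j.symm)) dr
    exact (lc hq k dq).elim (fun d => ⟨_, c.mul_dvd_of_dvd_of_dvd d this.1⟩)
      fun d => ⟨_, c.mul_dvd_of_dvd_of_dvd d this.2⟩
  · have := both hq n dq
    exact (lc hr k dr).elim (fun d => ⟨_, c.mul_dvd_of_dvd_of_dvd this.1 d⟩)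
      fun d => ⟨_, c.mul_dvd_of_dvd_of_dvd this.2 d⟩

theorem unb {p : ℕ} (n : ℕ) (H : Type) [Group H] [Finite H] {V : Subgroup H} [V.Normal] (hV : PiGrp {p} V)
    (h1 : V ≠ ⊥) : ∃ (K : Type) (_ : Group K) (_ : Finite K) (W : Subgroup K), W.Normal ∧ PiGrp {p} W ∧
      W ≠ ⊥ ∧ n < Nat.card K ∧ SG H K := by
  induction n with
  | zero => exact ⟨H, _, ‹_›, V, ‹_›, hV, h1, Nat.card_pos, sg_equiv (.refl H)⟩
  | succ n ih =>
    obtain ⟨K, _, _, W, _, a, b, c, d⟩ := ih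
    obtain ⟨L, _, _, U, _, e, f, g, k⟩ := step K a b
    exact ⟨L, _, ‹_›, U, ‹_›, e, f, by omega, d.trans k⟩

/-- only groups of bounded order share the prime graph -/
def Bd (G : Type*) [Group G] : Prop :=
  ∃ n : ℕ, ∀ (H : Type) [Group H] [Finite H], SG G H → Nat.card H ≤ n

theorem Bd.rad (h : Bd G) {H : Type} [Group H] [Finite H] (s : SG G H) (N : Subgroup H) (hN : N.Normal)
    (k : Group.IsSolvable N) : N = ⊥ := by
  by_contra h1
  obtain ⟨n, hn⟩ := h
  obtain ⟨p, -, hp⟩ := Sol.exists_O_ne_bot k h1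
  have : (𝐎 {p} N).Normal := normalIn_top.1 ⟨le_top, (normalIn_top.2 hN).norm.trans (norm_O _ _)⟩
  obtain ⟨K, _, _, -, -, -, -, c, d⟩ := unb n H (O_pi {p} N) hp
  exact (hn K (s.trans d)).not_gt c

/-- the statement `S4008` in the lowest universe, for trivial solvable radical -/
def AS : Prop := ∀ (G : Type) [Group G] [Finite G], ¬ Group.IsSolvable G → ∀ r : ℕ, r.Prime → r ≠ 2 →
  r ∣ Nat.card G → (∀ g : G, orderOf g ≠ 2 * r) → (∀ N : Subgroup G, N.Normal → Group.IsSolvable N → N = ⊥) →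
    ∃ N : Subgroup G, N.Normal ∧ IsSimpleGroup N ∧ ¬ IsMulCommutative N ∧ centralizer (N : Set G) = ⊥

theorem Bd.nonadj (h : Bd G) {H : Type} [Group H] [Finite H] (s : SG G H) {p : ℕ} (hp : p.Prime)
    (d : p ∣ Nat.card H) : ∃ q : ℕ, q.Prime ∧ q ∣ Nat.card H ∧ q ≠ p ∧ ¬ ∃ g : H, orderOf g = p * q := by
  by_contra n
  push Not at n
  have := Fact.mk hp
  obtain ⟨x, ox⟩ := exists_prime_orderOf_dvd_card' p d
  obtain ⟨Z, _, _, cZ⟩ : ∃ (Z : Type) (_ : CommGroup Z) (_ : Finite Z), Nat.card Z = p :=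
    ⟨Multiplicative (ZMod p), inferInstance, inferInstance, by simp⟩
  have lc : ∀ {r : ℕ}, r.Prime → r ≠ p → ∀ k : H × Z, r ∣ orderOf k → r ∣ orderOf k.1 := fun hr ne k d => by
    rw [Prod.orderOf] at d
    exact ((Nat.Prime.dvd_mul hr).1 (d.trans (Nat.lcm_dvd_mul _ _))).resolve_right fun e =>
      ne ((Nat.prime_dvd_prime_iff_eq hr hp).1 (e.trans (cZ ▸ orderOf_dvd_natCard _)))
  have t : SG H (H × Z) := by
    refine sg_of (MonoidHom.inl H Z) (fun a b e => congrArg (·.1) e) (fun q hq k e => ?_)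
      fun q r hq hr ne k e => ?_
    · by_cases j : q = p
      · exact ⟨x, by rw [j, ox]⟩
      · exact ⟨_, lc hq j k e.symm.dvd⟩
    have dq : q ∣ orderOf k := e ▸ dvd_mul_right q r
    have dr : r ∣ orderOf k := e ▸ dvd_mul_left r q
    by_cases j : q = p
    · have j' : r ≠ p := fun i => ne (j.trans i.symm)
      obtain ⟨g, o⟩ := n r hr ((lc hr j' k dr).trans (orderOf_dvd_natCard _)) j'
      exact ⟨g, by rw [j, o]⟩
    by_cases j' : r = p
    · obtain ⟨g, o⟩ := n q hq ((lc hq j k dq).trans (orderOf_dvd_natCard _)) j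
      exact ⟨g, by rw [j', o, mul_comm]⟩
    exact ⟨_, ((Nat.coprime_primes hq hr).2 ne).mul_dvd_of_dvd_of_dvd (lc hq j k dq) (lc hr j' k dr)⟩
  have := h.rad (s.trans t) (MonoidHom.fst H Z).ker inferInstance (Group.isSolvable_of_comm fun a b =>
    Subtype.ext (Prod.ext (show a.1.1 * b.1.1 = b.1.1 * a.1.1 by
      rw [show a.1.1 = 1 from a.2, one_mul, mul_one]) (mul_comm a.1.2 b.1.2)))
  obtain ⟨z, oz⟩ := exists_prime_orderOf_dvd_card' (G := Z) p cZ.symm.dvd
  have m : ((1 : H), z) ∈ (MonoidHom.fst H Z).ker := rfl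
  rw [this] at m
  rw [show z = 1 from congrArg (·.2) (mem_bot.1 m), orderOf_one] at oz
  exact hp.one_lt.ne oz

theorem Bd.as (a : AS) (h : Bd G) [Finite G] [Nontrivial G] (H : Type) [Group H] [Finite H] (s : SG G H) :
    ∃ N : Subgroup H, N.Normal ∧ IsSimpleGroup N ∧ ¬ IsMulCommutative N ∧ centralizer (N : Set H) = ⊥ := by
  have ns : ¬ Group.IsSolvable H := fun k => by
    obtain ⟨p, hp, d⟩ := Nat.exists_prime_and_dvd (Finite.one_lt_card (α := G)).ne'
    have := card_eq_one.2 (h.rad s ⊤ inferInstance inferInstance)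
    rw [card_top] at this
    exact hp.one_lt.ne' (Nat.dvd_one.1 (this ▸ (s.1 p hp).1 d))
  have ev : 2 ∣ Nat.card H := even_iff_two_dvd.1 (Nat.not_odd_iff_even.1 fun o =>
    ns (CF.Hyp.isSolvable_of_odd o))
  obtain ⟨r, hr, d, ne, n⟩ := h.nonadj s Nat.prime_two ev
  exact a H ns r hr ne d (fun g e => n ⟨g, e⟩) (h.rad s)

theorem as_equiv (e : G ≃* H) (h : ∃ N : Subgroup H, N.Normal ∧ IsSimpleGroup N ∧ ¬ IsMulCommutative N ∧
    centralizer (N : Set H) = ⊥) : ∃ N : Subgroup G, N.Normal ∧ IsSimpleGroup N ∧ ¬ IsMulCommutative N ∧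
      centralizer (N : Set G) = ⊥ := by
  obtain ⟨N, n, s, c, z⟩ := h
  let f := (e.symm.subgroupMap N)
  refine ⟨N.map e.symm, n.map _ e.symm.surjective, f.symm.isSimpleGroup, fun k => c ⟨⟨fun a b =>
    f.injective (by rw [map_mul, map_mul]; exact k.is_comm.comm _ _)⟩⟩, eq_bot_iff.2 fun g hg => ?_⟩
  have : e g ∈ centralizer (N : Set H) := fun y hy => e.symm.injective (by
    simpa using hg (e.symm y) ⟨y, hy, rfl⟩)
  rw [z, mem_bot] at this
  exact mem_bot.2 (e.injective (this.trans (map_one e).symm))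

theorem Bd.as' (a : AS) (h : Bd G) [Finite G] [Nontrivial G] :
    ∃ N : Subgroup G, N.Normal ∧ IsSimpleGroup N ∧ ¬ IsMulCommutative N ∧ centralizer (N : Set G) = ⊥ := by
  obtain ⟨H, _, _, ⟨e⟩⟩ := CF.Hyp.exists_small G
  exact as_equiv e (h.as a H (sg_equiv e))

end CF.Ivc
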